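import Cfsg.Agent.H455.E83.Fix
import Cfsg.Agent.H64.E83.Orb
import Cfsg.Agent.H738.E83.Cube

/-!
# The lines `⟨q_I⟩`, `⟨q_II⟩` (helper455, S5925, box L)

`line_I`, `line_II` : a vector of the fixed space of `A_I` (`A_II`) with vanishing cube is a multiple of
`q_I` (`q_II`); hence `m11_lineI`, `m11_lineII` (an element of type `Afa`, `Afb` keeps the line) and
`pgl_line` (an element of type `h` moves `⟨q_I⟩` onto `⟨q_II⟩`).
-/

set_option autoImplicit false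

namespace Cfsg.Agent.H455.E83

open Matrix Cfsg Cfsg.Lie
open Cfsg.Agent.H64.E83 (L3 mx vec Ph er ac E ac_mul ac_one ac_inv_ac ac_ac_inv ac_smul vec_eq stabW U4 U1)
open Cfsg.Agent.H788.E83 (Ax Ay At)
open Cfsg.Agent.H738.E83 (cu wI wI' wII wII' vb cube_I cube_II ncube_I ncube_II mx_cu cu_smul)

/-! ### the same vectors -/

theorem vb_wI : vb wI = qI := vec_eq (by decide +kernel)

theorem vb_wI' : vb wI' = qI' := vec_eq (by decide +kernel)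

theorem vb_wII : vb wII = qII := vec_eq (by decide +kernel)

theorem vb_wII' : vb wII' = qII' := vec_eq (by decide +kernel)

theorem qI_H64 : Cfsg.Agent.H64.E83.qI = qI := by
  unfold Cfsg.Agent.H64.E83.qI Cfsg.Agent.H64.E83.i4
  rw [Fin.sum_univ_five]
  show (1 : ZMod 3) • _ + (0 : ZMod 3) • _ + (0 : ZMod 3) • _ + (0 : ZMod 3) • _ + (0 : ZMod 3) • _ = _
  rw [one_smul, zero_smul, zero_smul, zero_smul, zero_smul, add_zero, add_zero, add_zero, add_zero]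
  exact vec_eq (by decide +kernel)

theorem qII_H64 : Cfsg.Agent.H64.E83.qII = qII := by
  unfold Cfsg.Agent.H64.E83.qII Cfsg.Agent.H64.E83.i1
  rw [Fin.sum_univ_five]
  show (1 : ZMod 3) • _ + (0 : ZMod 3) • _ + (0 : ZMod 3) • _ + (0 : ZMod 3) • _ + (2 : ZMod 3) • _ = _
  have h2 : (2 : ZMod 3) = ((2 : ℤ) : ZMod 3) := rfl
  rw [one_smul, zero_smul, zero_smul, zero_smul, add_zero, add_zero, add_zero, h2,
    ← Cfsg.Agent.H64.E83.vec_smul, ← Cfsg.Agent.H64.E83.vec_append]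
  exact vec_eq (by decide +kernel)

/-! ### the lines -/

theorem cu_ac (g : E) {v : L3} (h : ∀ u, cu v u = 0) (u : L3) : cu (ac g v) u = 0 := by
  have h1 := mx_cu g v (ac g⁻¹ u)
  rw [h, Matrix.mulVec_zero] at h1
  have h2 : ac g (ac g⁻¹ u) = u := ac_ac_inv g u
  have h3 : cu (ac g v) (ac g (ac g⁻¹ u)) = 0 := h1.symm
  rwa [h2] at h3

theorem cu_qI (u : L3) : cu Cfsg.Agent.H64.E83.qI u = 0 := by rw [qI_H64, ← vb_wI]; exact cube_I u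

theorem cu_qII (u : L3) : cu Cfsg.Agent.H64.E83.qII u = 0 := by rw [qII_H64, ← vb_wII]; exact cube_II u

/-- **the line of `A_I`** -/
theorem line_I {v : L3} (hc : ∀ u, cu v u = 0)
    (h : ac (Ph Ay) v = v ∧ ac (Ph At) v = v ∧ ac (Ph At) (ac (Ph Ax) v) = ac (Ph Ax) v) :
    ∃ c : ZMod 3, v = c • Cfsg.Agent.H64.E83.qI := by
  obtain ⟨c, d, hv⟩ := fixI v h.1 h.2.1 h.2.2
  refine ⟨c, ?_⟩
  by_cases hd : d = 0
  · rw [hv, hd, zero_smul, add_zero, qI_H64]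
  · refine absurd (hc (er 14)) ?_
    rw [hv, ← vb_wI, ← vb_wI']
    exact ncube_I hd

/-- **the line of `A_II`** -/
theorem line_II {v : L3} (hc : ∀ u, cu v u = 0)
    (h : ac (Ph Ay) v = v ∧ ac (Ph At) v = v ∧ ac (Ph At) (ac (Ph Ax)⁻¹ v) = ac (Ph Ax)⁻¹ v) :
    ∃ c : ZMod 3, v = c • Cfsg.Agent.H64.E83.qII := by
  have h3 := h.2.2
  rw [← map_inv] at h3
  obtain ⟨c, d, hv⟩ := fixII v h.1 h.2.1 h3
  refine ⟨c, ?_⟩
  by_cases hd : d = 0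
  · rw [hv, hd, zero_smul, add_zero, qII_H64]
  · refine absurd (hc (er 0)) ?_
    rw [hv, ← vb_wII, ← vb_wII']
    exact ncube_II hd

/-- **`PGL₂(11)`**: `h q_I ∈ ⟨q_II⟩` -/
theorem pgl_line {h : E} (hx : h * Ph Ax * h⁻¹ = (Ph Ax)⁻¹) (hy : h * Ph Ay = Ph Ay * h) (ht : h * Ph At = Ph At * h) :
    ∃ c : ZMod 3, ac h Cfsg.Agent.H64.E83.qI = c • Cfsg.Agent.H64.E83.qII :=
  line_II (cu_ac h cu_qI) (Cfsg.Agent.H64.E83.pgl_fix hx hy ht)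

/-- **`PGL₂(11)` stabilises `U_I + U_II`** -/
theorem pgl_stab41 {h : E} (hx : h * Ph Ax * h⁻¹ = (Ph Ax)⁻¹) (hy : h * Ph Ay = Ph Ay * h) (ht : h * Ph At = Ph At * h)
    (hh : h * h = 1) : h ∈ stabW (U4 ⊔ U1) := by
  obtain ⟨c, hc⟩ := pgl_line hx hy ht
  exact Cfsg.Agent.H64.E83.pgl_stab hx hh hc

/-- **`M₁₁`, case I**: `f q_I ∈ ⟨q_I⟩` -/
theorem m11_lineI {f : E} (hy : f * Ph Ay * f⁻¹ = Ph Ay ^ 2) (ht : f * f = Ph At)
    (hb : f * ((Ph Ax)⁻¹ * Ph At * Ph Ax) * f⁻¹ = Ph Ay * ((Ph Ax)⁻¹ * Ph At * Ph Ax) * Ph At * Ph Ay ^ 2) :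
    ∃ c : ZMod 3, ac f Cfsg.Agent.H64.E83.qI = c • Cfsg.Agent.H64.E83.qI :=
  line_I (cu_ac f cu_qI) (Cfsg.Agent.H64.E83.m11_fixI hy ht hb)

/-- **`M₁₁`, case II**: `f q_II ∈ ⟨q_II⟩` -/
theorem m11_lineII {f : E} (hy : f * Ph Ay * f⁻¹ = Ph Ay ^ 2) (ht : f * f = Ph At)
    (hb : f * (Ph Ax * Ph At * (Ph Ax)⁻¹) * f⁻¹ = Ph Ay * (Ph Ax * Ph At * (Ph Ax)⁻¹) * Ph At * Ph Ay ^ 2) :
    ∃ c : ZMod 3, ac f Cfsg.Agent.H64.E83.qII = c • Cfsg.Agent.H64.E83.qII :=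
  line_II (cu_ac f cu_qII) (Cfsg.Agent.H64.E83.m11_fixII hy ht hb)

/-- a scalar of an element moving a nonzero vector is not zero -/
theorem ne_zero_of_ac {f : E} {c : ZMod 3} {q q' : L3} (hq : q ≠ 0) (h : ac f q = c • q') : c ≠ 0 := by
  rintro rfl
  rw [zero_smul] at h
  have h1 := ac_inv_ac f q
  rw [h] at h1
  exact hq (h1.symm.trans (Matrix.mulVec_zero _))

/-- `f q = c q`, `c = 1` or `c = -1` -/
theorem sign_of_ac {f : E} {c : ZMod 3} {q q' : L3} (hq : q ≠ 0) (h : ac f q = c • q') : c = 1 ∨ c = -1 := by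
  have key : ∀ c : ZMod 3, c ≠ 0 → c = 1 ∨ c = -1 := by decide
  exact key c (ne_zero_of_ac hq h)

end Cfsg.Agent.H455.E83
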