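import Cfsg.Agent.H64.E83.Act

/-!
# S5925, box L: the vectors `q_I, q_I', q_II, q_II'` (helper455)

Bases of the fixed spaces of the two subgroups `A₅` over `⟨y, t⟩` on the Lie algebra of `E₈(3)`.
-/

set_option autoImplicit false

namespace Cfsg.Agent.H455.E83

open Cfsg.Agent.H64.E83 (L3 vec)

def lI : List (ℕ × ℤ) := [(52, 1), (63, 1), (68, 1), (74, 1)]

def lI' : List (ℕ × ℤ) := [(30, 2), (31, 1), (32, 1), (33, 1), (34, 2), (40, 1), (41, 1), (42, 2), (43, 1), (44, 1),
  (46, 2), (47, 2), (48, 1), (49, 2), (50, 2), (51, 1), (56, 2), (57, 1), (59, 1), (61, 2), (200, 2), (201, 2),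
  (203, 2), (210, 2), (212, 2), (214, 1), (215, 1), (217, 2), (219, 2), (220, 2), (221, 2), (222, 1)]

def lII : List (ℕ × ℤ) := [(14, 1), (127, 2), (133, 1), (140, 2), (165, 1), (171, 1), (176, 1), (187, 1)]

def lII' : List (ℕ × ℤ) := [(10, 1), (11, 2), (13, 1), (17, 1), (18, 1), (19, 2), (22, 1), (24, 2), (25, 2), (26, 1),
  (27, 1), (28, 2), (29, 1), (36, 1), (37, 2), (39, 1), (157, 2), (158, 1), (159, 2), (161, 2), (178, 2), (179, 2),
  (180, 1), (181, 2), (182, 1), (183, 2), (189, 1), (190, 2), (192, 1), (195, 2), (196, 2), (197, 1), (198, 1),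
  (205, 1), (206, 2), (207, 1), (209, 1)]

/-- `q_I` -/
def qI : L3 := vec lI

/-- the second basis vector -/
def qI' : L3 := vec lI'

/-- `q_II` -/
def qII : L3 := vec lII

/-- the second basis vector -/
def qII' : L3 := vec lII'

end Cfsg.Agent.H455.E83
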